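import Cfsg.Agent.H3.OT.Weyl
import Cfsg.Agent.H460.OT.Bru
import Cfsg.Agent.H460.OT.Conc
import Cfsg.Agent.H194.OT.RankOneChev
import Cfsg.Agent.H186.OT.Iface

/-!
# S2539 (helper3): the Weyl group of `G(Ψ)`

`13 ≤ |K|`; `N = D.monomialSubgroup K`, `T = D.diagonalSubgroup K`, `perm = permHom hp.inList K`.

* `exists_rp`, `vec_perm` : every `n ∈ N` lies over some `w ∈ W`, and then `vec (perm n r) = rep w (vec r)`;
* `mem_tor_of_perm` : `perm n = 1` implies `n ∈ T`;
* `refl_PsiZ`, `refl_Psi` (W4) : for `n ∈ N ∩ G(Ψ)` the vector `vec (perm n s) - vec s` lies in the lattice of `Ψ`.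
-/

set_option autoImplicit false
set_option linter.unusedSectionVars false

universe u

namespace Cfsg.Agent.H3.OT

open CoxeterSystem Cfsg Cfsg.Lie Cfsg.Lie.ChevalleyDatum Cfsg.Agent.ChevalleyStructure
  Cfsg.Agent.ChevalleyStructure.Elts Cfsg.Agent.ChevalleyStructure.NPerm Cfsg.Agent.ChevalleyStructure.CoxeterGeom
  Cfsg.Agent.Tits.Roots Cfsg.Agent.Nodes.Reps Cfsg.Agent.Nodes.BNOf Cfsg.Agent.Nodes.Bruhat Cfsg.Agent.Nodes.Coroot
  Cfsg.Agent.Nodes.RGDChev Cfsg.Agent.Nodes Cfsg.Agent.H412.OT Cfsg.Agent.H186.OT Cfsg.Agent.H460.OT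

variable {D : ChevalleyDatum} {K : Type u} [Field K]

section

variable [Finite K] {l : ℕ} {M : CoxeterMatrix (Fin l)} (hp : IsType D l M) {W : Type*} [Group W]
  (cs : CoxeterSystem M W)

/-- every element of `N` lies over an element of `W` -/
theorem exists_rp (n : ↥(D.monomialSubgroup K)) : ∃ w, Rp cs (nsys (K := K) hp) w (n : GL D.Idx K) := by
  obtain ⟨P, hP⟩ : ∃ P : GL D.Idx K → Prop, ∀ g, P g ↔ ∃ w, Rp cs (nsys (K := K) hp) w g := ⟨_, fun _ => Iff.rfl⟩
  rw [← hP]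
  refine mono_induction hp.inList (P := fun m : ↥(D.monomialSubgroup K) => P m) ?_ ?_ ?_ ?_ n
  · intro i hi
    have hi' : i < l := by rw [← hp.rank_eq]; exact hi
    exact (hP _).2 ⟨_, rp_simple (cs := cs) (hN := nsys (K := K) hp) ⟨i, hi'⟩⟩
  · intro t ht
    exact (hP _).2 ⟨1, rp_of_mem ht⟩
  · intro m n hm hn
    obtain ⟨v, hv⟩ := (hP _).1 hm
    obtain ⟨w, hw⟩ := (hP _).1 hn
    exact (hP _).2 ⟨v * w, hv.mul hw⟩
  · intro n hn
    obtain ⟨w, hw⟩ := (hP _).1 hn
    exact (hP _).2 ⟨w⁻¹, hw.inv⟩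

variable (p : ℕ) [Fact p.Prime] [CharP K p]

include p in
/-- the action of `n` over `w` -/
theorem vec_perm {w : W} {n : ↥(D.monomialSubgroup K)} (hn : Rp cs (nsys (K := K) hp) w (n : GL D.Idx K))
    (r : Fin D.nroots) :
    vec D l ((permHom hp.inList K n r : Fin D.nroots) : ℕ) = rep cs hp.isCartan w (vec D l r) := by
  have h1 := (rgd_GL (K := K) hp cs p).conj_rp hn (isRoot_vec hp cs r.2)
  obtain ⟨s, hs, e⟩ := (isRoot_iff hp cs _).1 ((isRoot_vec hp cs r.2).act w)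
  rw [← e, XV_vec hp K r.2, XV_vec hp K hs] at h1
  have h2 : permHom hp.inList K n r = ⟨s, hs⟩ := permHom_eq_of_conj hp.inList h1
  rw [h2, ← e]

include cs p in
theorem mem_tor_of_perm' {n : ↥(D.monomialSubgroup K)} (hn : permHom hp.inList K n = 1) :
    (n : GL D.Idx K) ∈ D.diagonalSubgroup K := by
  obtain ⟨w, hw⟩ := exists_rp (K := K) hp cs n
  have h1 : w = 1 := by
    apply rep_injective cs hp.isCartan
    refine LinearMap.ext fun y => ?_
    rw [map_one, Module.End.one_apply]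
    have h2 : ∀ i : Fin l, rep cs hp.isCartan w (sr i) = sr i := by
      intro i
      have h3 := simple_lt hp.inList (lt_rank hp i)
      have h4 := vec_perm hp cs p hw ⟨D.simple i, h3⟩
      rw [hn] at h4
      rw [← vec_simple hp i]
      exact h4.symm
    have h5 : y = ∑ i, y i • sr i := by
      funext j
      simp [sr, Finset.sum_apply, Pi.single_apply]
    rw [h5, map_sum]
    refine Finset.sum_congr rfl fun i _ => ?_
    rw [map_smul, h2]
  rw [h1] at hw
  exact hw.mem_of_one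

end

/-- **The kernel of the action of `N` on the roots is `T`.** -/
theorem mem_tor_of_perm [Finite K] (hD : InList D) {n : ↥(D.monomialSubgroup K)} (hn : permHom hD K n = 1) :
    (n : GL D.Idx K) ∈ D.diagonalSubgroup K := by
  obtain ⟨l, M, hp⟩ := exists_isType hD
  obtain ⟨p, hcp⟩ := CharP.exists K
  have hpf : Fact p.Prime := ⟨CharP.char_is_prime K p⟩
  exact mem_tor_of_perm' hp M.toCoxeterSystem p hn

/-- `G(Ψ)` centralises `Z`. -/
theorem GS_PsiZ_comm (hD : InList D) {Z : Subgroup (GL D.Idx K)} (hZ : Z ≤ D.diagonalSubgroup K) :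
    GS D K (PsiZ D K Z) ≤ Subgroup.centralizer (Z : Set (GL D.Idx K)) := by
  refine sup_le ?_ (iSup₂_le fun r hr => ?_)
  · intro t ht
    rw [Subgroup.mem_centralizer_iff]
    intro z hz
    have h1 := coe_tor hD ht
    have h2 := coe_tor hD (hZ hz)
    apply Units.ext
    rw [Units.val_mul, Units.val_mul, h1, h2, Matrix.diagonal_mul_diagonal, Matrix.diagonal_mul_diagonal]
    congr 1
    funext i
    exact mul_comm _ _
  · intro x hx
    rw [Subgroup.mem_centralizer_iff]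
    intro z hz
    obtain ⟨a, rfl⟩ := (mem_rootSubgroup_iff hD r x).1 hx
    have h1 := tor_conj_xG hD (hZ hz) hr.1 a
    rw [hr.2 z hz, one_mul, mul_inv_eq_iff_eq_mul] at h1
    exact h1

/-- the roots of `G(Ψ)` -/
theorem mem_PsiZ_of_le (hD : InList D) {Z : Subgroup (GL D.Idx K)} (hZ : Z ≤ D.diagonalSubgroup K) {r : ℕ}
    (hr : r < D.nroots) (h : D.rootSubgroup K r ≤ GS D K (PsiZ D K Z)) : r ∈ PsiZ D K Z := by
  refine ⟨hr, fun z hz => ?_⟩
  have h1 := Subgroup.mem_centralizer_iff.1 (GS_PsiZ_comm hD hZ (h (xG_mem_rootSubgroup hD r 1))) z hz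
  have h2 := tor_conj_xG hD (hZ hz) hr 1
  rw [h1, mul_inv_cancel_right, mul_one] at h2
  exact (xG_injective hD hr h2).symm

/-- **(W4)** -/
theorem refl_PsiZ [Finite K] (hK : 13 ≤ Nat.card K) {l : ℕ} {M : CoxeterMatrix (Fin l)} (hp : IsType D l M)
    {Z : Subgroup (GL D.Idx K)} (hZ : Z ≤ D.diagonalSubgroup K) (n : ↥(D.monomialSubgroup K))
    (hn : (n : GL D.Idx K) ∈ GS D K (PsiZ D K Z)) (s : Fin D.nroots) :
    vec D l ((permHom hp.inList K n s : Fin D.nroots) : ℕ) - vec D l s ∈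
      AddSubgroup.closure (vec D l '' PsiZ D K Z) := by
  obtain ⟨p, hcp⟩ := CharP.exists K
  have hpf : Fact p.Prime := ⟨CharP.char_is_prime K p⟩
  have : Finite (GL D.Idx K) := inferInstance
  let cs : CoxeterSystem M M.Group := M.toCoxeterSystem
  have hW : Finite M.Group := finite_W hp cs
  obtain ⟨z, hz⟩ := td hp cs p hK
  obtain ⟨w, hw⟩ := exists_rp (K := K) hp cs n
  have hR := rgd_GL (K := K) hp cs p
  obtain ⟨H, hH⟩ : ∃ H, H = GS D K (PsiZ D K Z) := ⟨_, rfl⟩
  have hTH : D.diagonalSubgroup K ≤ H := by rw [hH]; exact tor_le_GS _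
  have hmem : ∀ x, x ∈ RS cs hp.isCartan (XV D l K) H → ∃ r ∈ PsiZ D K Z, vec D l r = x := by
    rintro x ⟨hx, hxH⟩
    obtain ⟨r, hr, rfl⟩ := (isRoot_iff hp cs x).1 hx
    rw [XV_vec hp K hr, hH] at hxH
    exact ⟨r, mem_PsiZ_of_le hp.inList hZ hr hxH, rfl⟩
  have hmem' : ∀ r ∈ PsiZ D K Z, vec D l r ∈ RS cs hp.isCartan (XV D l K) H := by
    intro r hr
    refine ⟨isRoot_vec hp cs hr.1, ?_⟩
    rw [XV_vec hp K hr.1, hH]
    exact root_le_GS hr
  have hneg : ∀ r ∈ PsiZ D K Z, D.neg r ∈ PsiZ D K Z := by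
    intro r hr
    refine ⟨neg_lt hp.inList hr.1, fun z hz => ?_⟩
    rw [Cfsg.Agent.H194.OT.chi_neg hp.inList (hZ hz) hr.1, hr.2 z hz, inv_one]
  have hpos : ∀ a ∈ RS cs hp.isCartan (XV D l K) H, -a ∉ RS cs hp.isCartan (XV D l K) H → 0 ≤ a := by
    intro a ha hna
    exfalso
    obtain ⟨r, hr, rfl⟩ := hmem a ha
    apply hna
    rw [← RGDChev.vec_neg hp hr.1]
    exact hmem' _ (hneg r hr)
  have hG0 : (n : GL D.Idx K) ∈ G0 cs hp.isCartan (D.diagonalSubgroup K) (XV D l K) H := by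
    have h1 : GS D K (PsiZ D K Z) ≤ G0 cs hp.isCartan (D.diagonalSubgroup K) (XV D l K) H := by
      refine sup_le T_le_G0 (iSup₂_le fun r hr => ?_)
      rw [← XV_vec hp K hr.1]
      exact X_le_G0 (hmem' r hr)
    exact h1 hn
  have h1 := mem_W0_of_rp hR hz hTH hpos hG0 hw
  have h2 : ∀ x, rep cs hp.isCartan w x - x ∈ AddSubgroup.closure (vec D l '' PsiZ D K Z) := by
    clear hw
    unfold W0 at h1
    induction h1 using Subgroup.closure_induction with
    | mem s hs =>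
      obtain ⟨a, ha, hs⟩ := hs
      intro x
      obtain ⟨r, hr, rfl⟩ := hmem a ha.1.1.1
      rw [hs x, sub_sub_cancel_left]
      have h3 : vec D l r ∈ AddSubgroup.closure (vec D l '' PsiZ D K Z) := AddSubgroup.subset_closure ⟨r, hr, rfl⟩
      exact neg_mem (zsmul_mem h3 _)
    | one =>
      intro x
      rw [map_one, Module.End.one_apply, sub_self]
      exact zero_mem _
    | mul v v' _ _ ih ih' =>
      intro x
      rw [rep_mul_apply]
      have h3 := add_mem (ih (rep cs hp.isCartan v' x)) (ih' x)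
      rwa [sub_add_sub_cancel] at h3
    | inv v _ ih =>
      intro x
      have h3 := neg_mem (ih (rep cs hp.isCartan v⁻¹ x))
      rwa [rep_apply_inv, neg_sub] at h3
  rw [vec_perm hp cs p hw]
  exact h2 _

/-- **(W4)** in the form of helper501. -/
theorem refl_Psi [Finite K] (hK : 13 ≤ Nat.card K) {l : ℕ} {M : CoxeterMatrix (Fin l)} (hp : IsType D l M)
    {F : Subgroup (GL D.Idx K)} (hZ : Zf F ≤ D.diagonalSubgroup K) (n : ↥(D.monomialSubgroup K))
    (hn : (n : GL D.Idx K) ∈ GS D K (Psi D K F)) (s : Fin D.nroots) :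
    vec D l ((permHom hp.inList K n s : Fin D.nroots) : ℕ) - vec D l s ∈ AddSubgroup.closure (vec D l '' Psi D K F) :=
  refl_PsiZ hK hp hZ n hn s

end Cfsg.Agent.H3.OT
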